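import Mathlib
import Cfsg.Prelude.Def_OddOrderLocal
import Cfsg.Agent.Lib.Helper69.BG40.Defs
import Cfsg.Agent.Lib.Helper24.CyclicP
import Cfsg.Agent.Lib.Helper47.BG.SigmaNe
import Cfsg.Agent.Lib.Helper57.BG.S1361Core
import Cfsg.Agent.Lib.Helper74.BG.Tools
import Cfsg.Agent.Lib.Helper67.BG.Basics
import Cfsg.Agent.Lib.Helper67.BG.FitUtil
import Cfsg.Agent.Lib.Helper79.BG.Util2

/-!
# S1440 package PKA (Bender–Glauberman 15.8 front end)

`X = F(M) ∩ g F(M) g⁻¹ ≠ 1` with `g ∉ M`: `X ≤ M_σ`, `X` is cyclic, its prime divisors lie in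
`σ(M) \ β(M)`, `X ∩ (M_σ)' = 1`, and no element of prime order of `X` has its centralizer in `M`.
-/

set_option autoImplicit false

namespace Cfsg.Agent.Lib.Helper66.BG40

open Cfsg Cfsg.Agent.Lib.Helper69.BG40

universe u

/-- In a nilpotent subgroup `F`, an element of prime order `q ∈ π` lies in `O_π(F)`. -/
theorem mem_piCoreOf_of_nilpotent {G : Type u} [Group G] [Finite G] {F : Subgroup G}
    (hF : Group.IsNilpotent ↥F) {π : Set ℕ} {q : ℕ} (hq : q.Prime) (hqπ : q ∈ π) {a : G}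
    (haF : a ∈ F) (hao : orderOf a = q) : a ∈ piCoreOf π F := by
  have : Fact q.Prime := ⟨hq⟩
  obtain ⟨P⟩ : Nonempty (Sylow q ↥F) := inferInstance
  have htfae : Group.IsNilpotent ↥F ↔
      ∀ (p : ℕ) (_hp : Fact p.Prime) (P : Sylow p ↥F), (P : Subgroup ↥F).Normal :=
    (Group.isNilpotent_of_finite_tfae (G := ↥F)).out 0 3
  have hPn : (P : Subgroup ↥F).Normal := htfae.mp hF q ⟨hq⟩ P
  have hle : (P : Subgroup ↥F) ≤ piCore π ↥F := by
    apply le_sSup
    refine ⟨hPn, ?_⟩
    intro p hp hdvd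
    obtain ⟨n, hn⟩ := IsPGroup.iff_card.mp P.isPGroup'
    rw [hn] at hdvd
    have h := (Nat.prime_dvd_prime_iff_eq hp hq).mp (hp.dvd_of_dvd_pow hdvd)
    rw [h]; exact hqπ
  have ha' : (⟨a, haF⟩ : ↥F) ∈ (P : Subgroup ↥F) := by
    have hpg : IsPGroup q ↥(Subgroup.zpowers (⟨a, haF⟩ : ↥F)) := by
      apply IsPGroup.of_card (n := 1)
      rw [Nat.card_zpowers, Subgroup.orderOf_mk, hao, pow_one]
    obtain ⟨Q, hQ⟩ := hpg.exists_le_sylow
    have := Sylow.unique_of_normal P hPn
    have hQP : Q = P := Subsingleton.elim _ _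
    rw [← hQP]; exact hQ (Subgroup.mem_zpowers _)
  exact ⟨⟨a, haF⟩, hle ha', rfl⟩

theorem pkA : Cfsg.Agent.Lib.Helper69.BG40.PKA.{u} := by
  intro G _ _ hG h1350 h1404 h1426 h1439 M hM K U hKU g hg hX
  obtain ⟨hHall, -, -⟩ := h1350 M hM
  obtain ⟨hYc, -, -⟩ := h1439 M hM
  have hFM : fittingOf M ≤ M := Cfsg.Agent.Lib.Helper67.BG.fittingOf_le M
  have hFnil : Group.IsNilpotent ↥(fittingOf M) :=
    Cfsg.Agent.Lib.Helper67.BG.fittingOf_isNilpotent M
  have hMF : M ≤ Subgroup.normalizer (fittingOf M : Set G) :=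
    Cfsg.Agent.Lib.Helper79.BG.fittingOf_normalizer M
  obtain ⟨Y, hYdef⟩ : ∃ Y : Subgroup G,
      Y = piCoreOf {q | q.Prime ∧ q ∉ sigma M} (fittingOf M) := ⟨_, rfl⟩
  rw [← hYdef] at hYc
  -- Claim A: elements of `F(M)` of prime order outside `σ(M)` lie in `Y`
  have hA : ∀ q : ℕ, q.Prime → q ∉ sigma M → ∀ a ∈ fittingOf M, orderOf a = q → a ∈ Y := by
    intro q hq hqσ a ha hao
    rw [hYdef]
    exact mem_piCoreOf_of_nilpotent hFnil hq (π := {q | q.Prime ∧ q ∉ sigma M})
      (show q.Prime ∧ q ∉ sigma M from ⟨hq, hqσ⟩) ha hao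
  have hXF : Xof M g ≤ fittingOf M := inf_le_left
  have hXg : ∀ a ∈ Xof M g, g⁻¹ * a * g ∈ fittingOf M := by
    intro a ha
    obtain ⟨b, hb, hba⟩ := ha.2
    have : g⁻¹ * a * g = b := by
      rw [← hba]
      simp only [MulEquiv.toMonoidHom_eq_coe, MonoidHom.coe_coe, MulAut.conj_apply]
      group
    rw [this]; exact hb
  have hconjF : ∀ m ∈ M, ∀ a ∈ fittingOf M, m * a * m⁻¹ ∈ fittingOf M := by
    intro m hm a ha
    exact ((Subgroup.mem_normalizer_iff.mp (hMF hm)) a).mp ha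
  have hoc : ∀ (c a : G), orderOf (c * a * c⁻¹) = orderOf a := by
    intro c a
    have := orderOf_injective (MulAut.conj c).toMonoidHom (MulAut.conj c).injective a
    simpa using this
  -- Step 1: the prime divisors of `#X` lie in `σ(M)`
  have hXσ : ∀ q : ℕ, q.Prime → q ∣ Nat.card ↥(Xof M g) → q ∈ sigma M := by
    intro q hq hdvd
    by_contra hqσ
    have : Fact q.Prime := ⟨hq⟩
    obtain ⟨a', ha'⟩ := exists_prime_orderOf_dvd_card' q hdvd
    obtain ⟨a, haX⟩ := a'
    have hao : orderOf a = q := by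
      rw [← ha', Subgroup.orderOf_mk]
    have ha1 : a ≠ 1 := by
      rintro rfl
      rw [orderOf_one] at hao
      exact hq.one_lt.ne' hao.symm
    have haF : a ∈ fittingOf M := hXF haX
    have haY : a ∈ Y := hA q hq hqσ a haF hao
    have key : ∀ c ∈ fittingOf M, orderOf c = q → c ∈ Subgroup.zpowers a := by
      intro c hcF hco
      have hc : c ∈ Y := hA q hq hqσ c hcF hco
      have : IsCyclic ↥Y := hYc
      have h1 := Cfsg.Agent.Lib.Helper24.mem_zpowers_of_orderOf_eq_prime hq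
        (⟨a, haY⟩ : ↥Y) ⟨c, hc⟩ (by rw [Subgroup.orderOf_mk]; exact hao)
        (by
          apply Subtype.ext
          simp only [SubmonoidClass.mk_pow, OneMemClass.coe_one]
          rw [← hco]; exact pow_orderOf_eq_one c)
      obtain ⟨n, hn⟩ := Subgroup.mem_zpowers_iff.mp h1
      refine Subgroup.mem_zpowers_iff.mpr ⟨n, ?_⟩
      have h2 := congrArg Subtype.val hn
      simpa using h2
    have hconj : ∀ c : G, c * a * c⁻¹ ∈ fittingOf M →
        c ∈ Subgroup.normalizer ((Subgroup.zpowers a : Subgroup G) : Set G) := by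
      intro c hc
      apply Subgroup.mem_normalizer_fintype
      intro n hn
      obtain ⟨k, rfl⟩ := Subgroup.mem_zpowers_iff.mp hn
      have h1 : c * a * c⁻¹ ∈ Subgroup.zpowers a := key _ hc (by rw [hoc, hao])
      have h2 : c * a ^ k * c⁻¹ = (c * a * c⁻¹) ^ k := by
        rw [conj_zpow]
      show c * a ^ k * c⁻¹ ∈ Subgroup.zpowers a
      rw [h2]
      exact Subgroup.zpow_mem _ h1 k
    have hnorm : M ≤ Subgroup.normalizer ((Subgroup.zpowers a : Subgroup G) : Set G) :=
      fun m hm => hconj m (hconjF m hm a haF)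
    have hN : Subgroup.normalizer ((Subgroup.zpowers a : Subgroup G) : Set G) = M :=
      Cfsg.Agent.Lib.Helper47.BG.normalizer_eq_of_coatom hG hM
        (by rw [Subgroup.zpowers_le]; exact hFM haF)
        (by
          intro h
          apply ha1
          have := Subgroup.mem_zpowers a
          rw [h] at this
          exact Subgroup.mem_bot.mp this) hnorm
    have hgN : g⁻¹ ∈ Subgroup.normalizer ((Subgroup.zpowers a : Subgroup G) : Set G) := by
      apply hconj
      have := hXg a haX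
      simpa using this
    rw [hN] at hgN
    exact hg (by simpa using M.inv_mem hgN)
  -- Step 2: `X ≤ M_σ`
  have hXle : Xof M g ≤ sigmaCore M :=
    Cfsg.Agent.Lib.Helper74.BG.le_of_isPiHallOf_of_normal hHall
      (Cfsg.Agent.Lib.Helper67.BG.sigmaCore_normalizer M) (hXF.trans hFM) hXσ
  -- Step 3: `X ≤ M_σ ∩ M^g`, and S1426
  have hXMg : Xof M g ≤ sigmaCore M ⊓ M.map (MulAut.conj g).toMonoidHom := by
    refine le_inf hXle ?_
    exact inf_le_right.trans (Subgroup.map_mono hFM)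
  have hE : IsComplIn (K ⊔ U) (sigmaCore M) M :=
    Cfsg.Agent.Lib.Helper57.BG.isComplIn_sup_of_sigmaDecomposition hKU
  obtain ⟨-, -, h3⟩ := h1426 M hM (K ⊔ U) hE
  obtain ⟨hcyc, hβ, hder⟩ := h3 g hg
  refine ⟨hXle, ?_, ?_, ?_, ?_⟩
  · -- cyclic
    have := hcyc
    have e : ↥(Xof M g) ≃* ↥((Xof M g).subgroupOf
        (sigmaCore M ⊓ M.map (MulAut.conj g).toMonoidHom)) :=
      (Subgroup.subgroupOfEquivOfLe hXMg).symm
    exact isCyclic_of_surjective e.symm e.symm.surjective
  · intro q hq hdvd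
    exact ⟨hXσ q hq hdvd, hβ q hq (hdvd.trans (Subgroup.card_dvd_of_le hXMg))⟩
  · rw [eq_bot_iff, ← hder]
    exact inf_le_inf hXMg le_rfl
  · intro y hy hyp hCy
    -- `p = orderOf y ∈ σ(M)`, `⟨y⟩` a nontrivial `p`-subgroup of `M`
    have hyX : Subgroup.zpowers y ≤ Xof M g := by rw [Subgroup.zpowers_le]; exact hy
    have : Fact (orderOf y).Prime := ⟨hyp⟩
    have hpσ : orderOf y ∈ sigma M := by
      apply hXσ _ hyp
      rw [← Nat.card_zpowers]
      exact Subgroup.card_dvd_of_le hyX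
    have hpg : IsPGroup (orderOf y) ↥(Subgroup.zpowers y) := by
      apply IsPGroup.of_card (n := 1)
      rw [Nat.card_zpowers, pow_one]
    have hy1 : Subgroup.zpowers y ≠ ⊥ := by
      intro h
      have h1 : y = 1 := by
        have := Subgroup.mem_zpowers y
        rw [h] at this
        exact Subgroup.mem_bot.mp this
      rw [h1, orderOf_one] at hyp
      exact Nat.not_prime_one hyp
    have hyM : Subgroup.zpowers y ≤ M := hyX.trans (hXF.trans hFM)
    obtain ⟨h4, -⟩ := h1404 M hM (orderOf y) hpσ (Subgroup.zpowers y) hpg hy1 hyM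
    have hmap : (Subgroup.zpowers y).map (MulAut.conj g⁻¹).toMonoidHom ≤ M := by
      rw [MonoidHom.map_zpowers, Subgroup.zpowers_le]
      have := hFM (hXg y hy)
      simpa using this
    obtain ⟨m, hm, c, hc, hgmc⟩ := h4 g⁻¹ hmap
    have hcM : c ∈ M := by
      apply hCy
      rw [Subgroup.mem_centralizer_iff] at hc ⊢
      intro h hh
      rw [Set.mem_singleton_iff] at hh
      rw [hh]
      exact hc y (Subgroup.mem_zpowers y)
    have : g⁻¹ ∈ M := by rw [hgmc]; exact M.mul_mem hm hcM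
    exact hg (by simpa using M.inv_mem this)

end Cfsg.Agent.Lib.Helper66.BG40
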